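import Mathlib
import Cfsg.Agent.Lib.Helper2.PSL34

set_option autoImplicit false

namespace Cfsg.Agent.Lib.Helper2.PSL34

theorem mulT_lt (x y : ℕ) : mulT x y < 4 := Nat.mod_lt _ (by norm_num)

theorem xor_lt {x y : ℕ} (hx : x < 4) (hy : y < 4) : Nat.xor x y < 4 := by
  interval_cases x <;> interval_cases y <;> decide

def mulF (x y : ℕ) : ℕ :=
  ((x % 2) * (y % 2) + (x / 2 % 2) * (y / 2 % 2)) % 2 +
    2 * (((x % 2) * (y / 2 % 2) + (x / 2 % 2) * (y % 2) + (x / 2 % 2) * (y / 2 % 2)) % 2)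

def addF (x y : ℕ) : ℕ := (x % 2 + y % 2) % 2 + 2 * ((x / 2 % 2 + y / 2 % 2) % 2)

theorem mulT_eq {x y : ℕ} (hx : x < 4) (hy : y < 4) : mulT x y = mulF x y := by
  interval_cases x <;> interval_cases y <;> decide

theorem xor_eq {x y : ℕ} (hx : x < 4) (hy : y < 4) : Nat.xor x y = addF x y := by
  interval_cases x <;> interval_cases y <;> decide

theorem xor_zero {x y : ℕ} (hx : x < 4) (hy : y < 4) (h : Nat.xor x y = 0) : x = y := by
  interval_cases x <;> interval_cases y <;> revert h <;> decide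

section field

variable {F : Type*} [Field F]

def cc (ω : F) (n : ℕ) : F := ((n % 2 : ℕ) : F) + ((n / 2 % 2 : ℕ) : F) * ω

variable {ω : F}

theorem cast_mod2 (h2 : (2 : F) = 0) (n : ℕ) : ((n % 2 : ℕ) : F) = (n : F) := by
  have h := Nat.mod_add_div n 2
  have h3 : ((n % 2 + 2 * (n / 2) : ℕ) : F) = (n : F) := by rw [h]
  push_cast at h3
  rw [h2, zero_mul, add_zero] at h3
  exact h3

theorem bits (p q : ℕ) (hp : p < 2) (hq : q < 2) :
    (p + 2 * q) % 2 = p ∧ (p + 2 * q) / 2 % 2 = q := by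
  constructor <;> omega

theorem cc_mulT (h2 : (2 : F) = 0) (hω : ω ^ 2 + ω + 1 = 0) {x y : ℕ} (hx : x < 4) (hy : y < 4) :
    cc ω (mulT x y) = cc ω x * cc ω y := by
  rw [mulT_eq hx hy]
  unfold mulF cc
  obtain ⟨e0, e1⟩ := bits (((x % 2) * (y % 2) + (x / 2 % 2) * (y / 2 % 2)) % 2)
    (((x % 2) * (y / 2 % 2) + (x / 2 % 2) * (y % 2) + (x / 2 % 2) * (y / 2 % 2)) % 2)
    (Nat.mod_lt _ (by norm_num)) (Nat.mod_lt _ (by norm_num))
  rw [e0, e1, cast_mod2 h2, cast_mod2 h2]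
  push_cast
  linear_combination (((x / 2 % 2 : ℕ) : F) * ((y / 2 % 2 : ℕ) : F) * (1 + ω)) * h2 -
    (((x / 2 % 2 : ℕ) : F) * ((y / 2 % 2 : ℕ) : F)) * hω

theorem cc_xor (h2 : (2 : F) = 0) {x y : ℕ} (hx : x < 4) (hy : y < 4) :
    cc ω (Nat.xor x y) = cc ω x + cc ω y := by
  rw [xor_eq hx hy]
  unfold addF cc
  obtain ⟨e0, e1⟩ := bits ((x % 2 + y % 2) % 2) ((x / 2 % 2 + y / 2 % 2) % 2)
    (Nat.mod_lt _ (by norm_num)) (Nat.mod_lt _ (by norm_num))
  rw [e0, e1, cast_mod2 h2, cast_mod2 h2]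
  push_cast
  ring

theorem cc_zero : cc ω 0 = 0 := by simp [cc]

theorem cc_one : cc ω 1 = 1 := by simp [cc]

theorem cc_eq_zero (hω : ω ^ 2 + ω + 1 = 0) {z : ℕ} (hz : z < 4) (h : cc ω z = 0) : z = 0 := by
  interval_cases z
  · rfl
  · exfalso
    rw [cc_one] at h
    exact one_ne_zero h
  · exfalso
    have h' : ω = 0 := by simpa [cc] using h
    have : (1 : F) = 0 := by linear_combination hω - (ω + 1) * h'
    exact one_ne_zero this
  · exfalso
    have h' : 1 + ω = 0 := by simpa [cc] using h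
    have : (1 : F) = 0 := by linear_combination hω - ω * h'
    exact one_ne_zero this

theorem cc_inj (h2 : (2 : F) = 0) (hω : ω ^ 2 + ω + 1 = 0) {x y : ℕ} (hx : x < 4) (hy : y < 4)
    (h : cc ω x = cc ω y) : x = y := by
  apply xor_zero hx hy
  apply cc_eq_zero hω (xor_lt hx hy)
  rw [cc_xor h2 hx hy, h]
  linear_combination (cc ω y) * h2

theorem dot3_spec (h2 : (2 : F) = 0) (hω : ω ^ 2 + ω + 1 = 0) {a b c d e f : ℕ}
    (ha : a < 4) (hb : b < 4) (hc : c < 4) (hd : d < 4) (he : e < 4) (hf : f < 4) :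
    dot3 a b c d e f < 4 ∧
      cc ω (dot3 a b c d e f) = cc ω a * cc ω b + cc ω c * cc ω d + cc ω e * cc ω f := by
  unfold dot3
  refine ⟨xor_lt (xor_lt (mulT_lt _ _) (mulT_lt _ _)) (mulT_lt _ _), ?_⟩
  rw [cc_xor h2 (xor_lt (mulT_lt _ _) (mulT_lt _ _)) (mulT_lt _ _),
    cc_xor h2 (mulT_lt _ _) (mulT_lt _ _), cc_mulT h2 hω ha hb, cc_mulT h2 hω hc hd,
    cc_mulT h2 hω he hf]

def matC (ω : F) (s : M9) : Matrix (Fin 3) (Fin 3) F :=
  !![cc ω s.a, cc ω s.b, cc ω s.c; cc ω s.d, cc ω s.e, cc ω s.f; cc ω s.g, cc ω s.h, cc ω s.i]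

theorem mm_spec (h2 : (2 : F) = 0) (hω : ω ^ 2 + ω + 1 = 0) (s t : M9) (hs : red s) (ht : red t) :
    red (mmN s t) ∧ matC ω (mmN s t) = matC ω s * matC ω t := by
  obtain ⟨sa, sb, sc, sd, se, sf, sg, sh, si⟩ := hs
  obtain ⟨ta, tb, tc, td, te, tf, tg, th, ti⟩ := ht
  have d1 := dot3_spec h2 hω sa ta sb td sc tg
  have d2 := dot3_spec h2 hω sa tb sb te sc th
  have d3 := dot3_spec h2 hω sa tc sb tf sc ti
  have d4 := dot3_spec h2 hω sd ta se td sf tg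
  have d5 := dot3_spec h2 hω sd tb se te sf th
  have d6 := dot3_spec h2 hω sd tc se tf sf ti
  have d7 := dot3_spec h2 hω sg ta sh td si tg
  have d8 := dot3_spec h2 hω sg tb sh te si th
  have d9 := dot3_spec h2 hω sg tc sh tf si ti
  refine ⟨⟨d1.1, d2.1, d3.1, d4.1, d5.1, d6.1, d7.1, d8.1, d9.1⟩, ?_⟩
  unfold matC
  rw [Matrix.mul_fin_three]
  show !![cc ω (dot3 s.a t.a s.b t.d s.c t.g), cc ω (dot3 s.a t.b s.b t.e s.c t.h),
      cc ω (dot3 s.a t.c s.b t.f s.c t.i);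
    cc ω (dot3 s.d t.a s.e t.d s.f t.g), cc ω (dot3 s.d t.b s.e t.e s.f t.h),
      cc ω (dot3 s.d t.c s.e t.f s.f t.i);
    cc ω (dot3 s.g t.a s.h t.d s.i t.g), cc ω (dot3 s.g t.b s.h t.e s.i t.h),
      cc ω (dot3 s.g t.c s.h t.f s.i t.i)] = _
  rw [d1.2, d2.2, d3.2, d4.2, d5.2, d6.2, d7.2, d8.2, d9.2]

theorem det_spec (h2 : (2 : F) = 0) (hω : ω ^ 2 + ω + 1 = 0) (s : M9) (hs : red s) :
    detN s < 4 ∧ cc ω (detN s) = (matC ω s).det := by
  obtain ⟨sa, sb, sc, sd, se, sf, sg, sh, si⟩ := hs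
  unfold detN
  have d := dot3_spec h2 hω sa (xor_lt (mulT_lt s.e s.i) (mulT_lt s.f s.h)) sb
    (xor_lt (mulT_lt s.d s.i) (mulT_lt s.f s.g)) sc (xor_lt (mulT_lt s.d s.h) (mulT_lt s.e s.g))
  refine ⟨d.1, ?_⟩
  rw [d.2, cc_xor h2 (mulT_lt _ _) (mulT_lt _ _), cc_xor h2 (mulT_lt _ _) (mulT_lt _ _),
    cc_xor h2 (mulT_lt _ _) (mulT_lt _ _), cc_mulT h2 hω se si, cc_mulT h2 hω sf sh,
    cc_mulT h2 hω sd si, cc_mulT h2 hω sf sg, cc_mulT h2 hω sd sh, cc_mulT h2 hω se sg,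
    Matrix.det_fin_three]
  simp only [matC, Matrix.of_apply, Matrix.cons_val', Matrix.cons_val_zero, Matrix.cons_val_one,
    Matrix.cons_val_two, Matrix.cons_val_fin_one, Matrix.head_cons, Matrix.tail_cons,
    Matrix.head_fin_const]
  linear_combination (cc ω s.a * cc ω s.f * cc ω s.h + cc ω s.b * cc ω s.d * cc ω s.i +
    cc ω s.c * cc ω s.e * cc ω s.g) * h2

theorem isSc_of (h2 : (2 : F) = 0) (hω : ω ^ 2 + ω + 1 = 0) (s : M9) (hs : red s) (r : F)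
    (h : matC ω s = Matrix.scalar (Fin 3) r) : isScN s = true := by
  obtain ⟨sa, sb, sc, sd, se, sf, sg, sh, si⟩ := hs
  have z4 : (0 : ℕ) < 4 := by norm_num
  have h00 := congrFun (congrFun h 0) 0
  have h01 := congrFun (congrFun h 0) 1
  have h02 := congrFun (congrFun h 0) 2
  have h10 := congrFun (congrFun h 1) 0
  have h11 := congrFun (congrFun h 1) 1
  have h12 := congrFun (congrFun h 1) 2
  have h20 := congrFun (congrFun h 2) 0
  have h21 := congrFun (congrFun h 2) 1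
  have h22 := congrFun (congrFun h 2) 2
  simp [matC, Matrix.scalar_apply] at h00 h01 h02 h10 h11 h12 h20 h21 h22
  have eb : s.b = 0 := cc_eq_zero hω sb h01
  have ec : s.c = 0 := cc_eq_zero hω sc h02
  have ed : s.d = 0 := cc_eq_zero hω sd h10
  have ef : s.f = 0 := cc_eq_zero hω sf h12
  have eg : s.g = 0 := cc_eq_zero hω sg h20
  have eh : s.h = 0 := cc_eq_zero hω sh h21
  have eae : s.a = s.e := cc_inj h2 hω sa se (h00.trans h11.symm)
  have eei : s.e = s.i := cc_inj h2 hω se si (h11.trans h22.symm)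
  unfold isScN
  rw [eb, ec, ed, ef, eg, eh, ← eei, ← eae]
  simp [Nat.beq_refl]

theorem of_isSc (s : M9) (hs : isScN s = true) :
    matC ω s = Matrix.scalar (Fin 3) (cc ω s.a) := by
  unfold isScN at hs
  simp only [Bool.and_eq_true] at hs
  obtain ⟨⟨⟨⟨⟨⟨⟨hb, hc⟩, hd⟩, hf⟩, hg⟩, hh⟩, hae⟩, hei⟩ := hs
  replace hb := Nat.eq_of_beq_eq_true hb
  replace hc := Nat.eq_of_beq_eq_true hc
  replace hd := Nat.eq_of_beq_eq_true hd
  replace hf := Nat.eq_of_beq_eq_true hf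
  replace hg := Nat.eq_of_beq_eq_true hg
  replace hh := Nat.eq_of_beq_eq_true hh
  replace hae := Nat.eq_of_beq_eq_true hae
  replace hei := Nat.eq_of_beq_eq_true hei
  ext i j
  fin_cases i <;> fin_cases j <;>
    simp [matC, Matrix.scalar_apply, Matrix.diagonal_apply, hb, hc, hd, hf, hg, hh, ← hei, ← hae,
      cc_zero]

end field

end Cfsg.Agent.Lib.Helper2.PSL34
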