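import Mathlib
import Cfsg.Agent.Lib.Helper2.PSL34b

set_option autoImplicit false

namespace Cfsg.Agent.Lib.Helper2.PSL34

theorem field4 {F : Type*} [Field F] [Fintype F] (hF : Fintype.card F = 4) :
    (2 : F) = 0 ∧ ∃ ω : F, ω ^ 2 + ω + 1 = 0 ∧ ∀ x : F, ∃ k < 4, cc ω k = x := by
  classical
  have h4 : ((4 : ℕ) : F) = 0 := by rw [← hF]; exact Nat.cast_card_eq_zero F
  have h2 : (2 : F) = 0 := by
    have : (2 : F) * 2 = 0 := by push_cast at h4; linear_combination h4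
    exact mul_self_eq_zero.1 this
  have hex : ∃ ω : F, ω ≠ 0 ∧ ω ≠ 1 := by
    by_contra hcon
    push Not at hcon
    have hsub : (Finset.univ : Finset F) ⊆ {0, 1} := by
      intro x _
      by_cases hx : x = 0
      · simp [hx]
      · simp [hcon x hx]
    have h5 := Finset.card_le_card hsub
    rw [Finset.card_univ, hF] at h5
    have h3 : ({0, 1} : Finset F).card ≤ 2 := Finset.card_le_two
    omega
  obtain ⟨ω, hω0, hω1⟩ := hex
  have hω3 : ω ^ 3 = 1 := by
    have := FiniteField.pow_card_sub_one_eq_one ω hω0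
    rwa [hF] at this
  have hω : ω ^ 2 + ω + 1 = 0 := by
    have h5 : (ω - 1) * (ω ^ 2 + ω + 1) = 0 := by linear_combination hω3
    rcases mul_eq_zero.1 h5 with h | h
    · exact absurd (sub_eq_zero.1 h) hω1
    · exact h
  refine ⟨h2, ω, hω, ?_⟩
  have hinj : Function.Injective (fun k : Fin 4 => cc ω (k : ℕ)) := by
    intro a b hab
    exact Fin.ext (cc_inj h2 hω a.2 b.2 hab)
  have hbij : Function.Bijective (fun k : Fin 4 => cc ω (k : ℕ)) := by
    rw [Fintype.bijective_iff_injective_and_card]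
    exact ⟨hinj, by rw [Fintype.card_fin, hF]⟩
  intro x
  obtain ⟨k, hk⟩ := hbij.2 x
  exact ⟨k, k.2, hk⟩

theorem key {F : Type*} [Field F] {ω : F} (h2 : (2 : F) = 0) (hω : ω ^ 2 + ω + 1 = 0)
    (u : M9) (B : Matrix.SpecialLinearGroup (Fin 3) F) (hu : red u)
    (huB : matC ω u = (B : Matrix (Fin 3) (Fin 3) F)) :
    isScN u = true ↔ B ∈ Subgroup.center (Matrix.SpecialLinearGroup (Fin 3) F) := by
  rw [Matrix.SpecialLinearGroup.mem_center_iff]
  constructor
  · intro h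
    have h1 := of_isSc (ω := ω) u h
    have h3 : Matrix.scalar (Fin 3) (cc ω u.a) = (B : Matrix (Fin 3) (Fin 3) F) := h1.symm.trans huB
    refine ⟨cc ω u.a, ?_, h3⟩
    have h4 := congrArg Matrix.det h3
    rw [B.det_coe] at h4
    rw [← h4]
    simp
  · rintro ⟨r, _, hr⟩
    exact isSc_of h2 hω u hu r (huB.trans hr.symm)

theorem hmul {F : Type*} [Field F] {ω : F} (h2 : (2 : F) = 0) (hω : ω ^ 2 + ω + 1 = 0)
    (u v : M9) (B C : Matrix.SpecialLinearGroup (Fin 3) F) (hu : red u) (hv : red v)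
    (huB : matC ω u = (B : Matrix (Fin 3) (Fin 3) F))
    (hvC : matC ω v = (C : Matrix (Fin 3) (Fin 3) F)) :
    red (mmN u v) ∧ matC ω (mmN u v) = ((B * C : Matrix.SpecialLinearGroup (Fin 3) F) :
      Matrix (Fin 3) (Fin 3) F) := by
  have h := mm_spec h2 hω u v hu hv
  refine ⟨h.1, ?_⟩
  rw [h.2, huB, hvC, Matrix.SpecialLinearGroup.coe_mul]

theorem no15 {F : Type*} [Field F] [Fintype F] (hF : Fintype.card F = 4)
    (g : Matrix.ProjectiveSpecialLinearGroup (Fin 3) F) : orderOf g ≠ 15 := by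
  obtain ⟨h2, ω, hω, hsurj⟩ := field4 hF
  obtain ⟨A, rfl⟩ := QuotientGroup.mk_surjective g
  intro h15
  choose t ht1 ht2 using (fun i j => hsurj ((A : Matrix (Fin 3) (Fin 3) F) i j))
  have hs : red ⟨t 0 0, t 0 1, t 0 2, t 1 0, t 1 1, t 1 2, t 2 0, t 2 1, t 2 2⟩ :=
    ⟨ht1 0 0, ht1 0 1, ht1 0 2, ht1 1 0, ht1 1 1, ht1 1 2, ht1 2 0, ht1 2 1, ht1 2 2⟩
  have hsA : matC ω ⟨t 0 0, t 0 1, t 0 2, t 1 0, t 1 1, t 1 2, t 2 0, t 2 1, t 2 2⟩ =
      (A : Matrix (Fin 3) (Fin 3) F) := by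
    ext i j
    fin_cases i <;> fin_cases j <;> simp [matC, ht2]
  generalize (⟨t 0 0, t 0 1, t 0 2, t 1 0, t 1 1, t 1 2, t 2 0, t 2 1, t 2 2⟩ : M9) = s at hs hsA
  have r2 := hmul h2 hω s s A A hs hs hsA hsA
  have r3 := hmul h2 hω (mmN s s) s (A * A) A r2.1 hs r2.2 hsA
  have r5 := hmul h2 hω (p3 s) (mmN s s) (A * A * A) (A * A) r3.1 r2.1 r3.2 r2.2
  have r10 := hmul h2 hω (p5 s) (p5 s) _ _ r5.1 r5.1 r5.2 r5.2
  have r15 := hmul h2 hω (mmN (p5 s) (p5 s)) (p5 s) _ _ r10.1 r5.1 r10.2 r5.2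
  have e3 : A * A * A = A ^ 3 := by rw [pow_succ, pow_succ, pow_one]
  have e5 : A * A * A * (A * A) = A ^ 5 := by rw [e3, ← pow_two, ← pow_add]
  have e15 : A * A * A * (A * A) * (A * A * A * (A * A)) * (A * A * A * (A * A)) = A ^ 15 := by
    rw [e5, ← pow_add, ← pow_add]
  have k3 := key h2 hω (p3 s) _ r3.1 r3.2
  have k5 := key h2 hω (p5 s) _ r5.1 r5.2
  have k15 := key h2 hω (p15 s) _ r15.1 r15.2
  rw [e3] at k3
  rw [e5] at k5
  rw [e15] at k15
  have hdet : detN s = 1 := by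
    have d := det_spec h2 hω s hs
    apply cc_inj h2 hω d.1 (by norm_num)
    rw [d.2, hsA, cc_one]
    exact A.det_coe
  have hc := chk_all s hs
  unfold chk at hc
  rw [hdet] at hc
  have hb : Nat.beq 1 1 = true := rfl
  rw [if_pos hb] at hc
  have hq : ∀ k : ℕ, A ^ k ∈ Subgroup.center (Matrix.SpecialLinearGroup (Fin 3) F) →
      orderOf (QuotientGroup.mk A : Matrix.ProjectiveSpecialLinearGroup (Fin 3) F) ∣ k := by
    intro k hk
    apply orderOf_dvd_of_pow_eq_one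
    rw [← QuotientGroup.mk_pow]
    exact (QuotientGroup.eq_one_iff _).2 hk
  by_cases h3 : isScN (p3 s) = true
  · have := hq 3 (k3.1 h3)
    rw [h15] at this
    omega
  · rw [if_neg h3] at hc
    by_cases h5 : isScN (p5 s) = true
    · have := hq 5 (k5.1 h5)
      rw [h15] at this
      omega
    · rw [if_neg h5] at hc
      have h15' : A ^ 15 ∈ Subgroup.center (Matrix.SpecialLinearGroup (Fin 3) F) := by
        apply (QuotientGroup.eq_one_iff _).1
        rw [QuotientGroup.mk_pow, ← h15]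
        exact pow_orderOf_eq_one _
      have h6 := k15.2 h15'
      rw [h6] at hc
      exact absurd hc (by decide)

end Cfsg.Agent.Lib.Helper2.PSL34
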