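import Mathlib
import Cfsg.Agent.Lib.Helper2.PSL34c
import Cfsg.Agent.Lib.Helper2.PSL34d

set_option autoImplicit false

namespace Cfsg.Agent.Lib.Helper2.PSL34

theorem red_of_redB (s : M9) (h : redB s = true) : red s := by
  unfold redB at h
  simp only [Bool.and_eq_true, Nat.blt_eq] at h
  obtain ⟨⟨⟨⟨⟨⟨⟨⟨ha, hb⟩, hc⟩, hd⟩, he⟩, hf⟩, hg⟩, hh⟩, hi⟩ := h
  exact ⟨ha, hb, hc, hd, he, hf, hg, hh, hi⟩

theorem eq_of_eqM (s t : M9) (h : eqM s t = true) : s = t := by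
  unfold eqM at h
  simp only [Bool.and_eq_true] at h
  obtain ⟨⟨⟨⟨⟨⟨⟨⟨ha, hb⟩, hc⟩, hd⟩, he⟩, hf⟩, hg⟩, hh⟩, hi⟩ := h
  obtain ⟨a, b, c, d, e, f, g, h', i⟩ := s
  obtain ⟨a', b', c', d', e', f', g', h'', i'⟩ := t
  have e1 := Nat.eq_of_beq_eq_true ha
  have e2 := Nat.eq_of_beq_eq_true hb
  have e3 := Nat.eq_of_beq_eq_true hc
  have e4 := Nat.eq_of_beq_eq_true hd
  have e5 := Nat.eq_of_beq_eq_true he
  have e6 := Nat.eq_of_beq_eq_true hf
  have e7 := Nat.eq_of_beq_eq_true hg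
  have e8 := Nat.eq_of_beq_eq_true hh
  have e9 := Nat.eq_of_beq_eq_true hi
  simp only at e1 e2 e3 e4 e5 e6 e7 e8 e9
  subst e1 e2 e3 e4 e5 e6 e7 e8 e9
  rfl

section field

variable {F : Type*} [Field F] {ω : F}

theorem scale_spec (h2 : (2 : F) = 0) (hω : ω ^ 2 + ω + 1 = 0) (z : ℕ) (hz : z < 4) (s : M9)
    (hs : red s) : red (scaleN z s) ∧ matC ω (scaleN z s) = cc ω z • matC ω s := by
  obtain ⟨sa, sb, sc, sd, se, sf, sg, sh, si⟩ := hs
  refine ⟨⟨mulT_lt _ _, mulT_lt _ _, mulT_lt _ _, mulT_lt _ _, mulT_lt _ _, mulT_lt _ _,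
    mulT_lt _ _, mulT_lt _ _, mulT_lt _ _⟩, ?_⟩
  unfold matC scaleN
  simp only
  rw [cc_mulT h2 hω hz sa, cc_mulT h2 hω hz sb, cc_mulT h2 hω hz sc, cc_mulT h2 hω hz sd,
    cc_mulT h2 hω hz se, cc_mulT h2 hω hz sf, cc_mulT h2 hω hz sg, cc_mulT h2 hω hz sh,
    cc_mulT h2 hω hz si]
  ext i j
  fin_cases i <;> fin_cases j <;> simp

theorem exists_code (hsurj : ∀ x : F, ∃ k < 4, cc ω k = x) (A : Matrix (Fin 3) (Fin 3) F) :
    ∃ s : M9, red s ∧ matC ω s = A := by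
  choose t ht1 ht2 using (fun i j => hsurj (A i j))
  refine ⟨⟨t 0 0, t 0 1, t 0 2, t 1 0, t 1 1, t 1 2, t 2 0, t 2 1, t 2 2⟩,
    ⟨ht1 0 0, ht1 0 1, ht1 0 2, ht1 1 0, ht1 1 1, ht1 1 2, ht1 2 0, ht1 2 1, ht1 2 2⟩, ?_⟩
  ext i j
  fin_cases i <;> fin_cases j <;> simp [matC, ht2]

theorem conjJ (h2 : (2 : F) = 0) (hω : ω ^ 2 + ω + 1 = 0)
    (hsurj : ∀ x : F, ∃ k < 4, cc ω k = x) (Jsl : Matrix.SpecialLinearGroup (Fin 3) F)
    (hJ : (Jsl : Matrix (Fin 3) (Fin 3) F) = matC ω Jn)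
    (x : Matrix.ProjectiveSpecialLinearGroup (Fin 3) F) (hx : orderOf x = 2) :
    IsConj x (QuotientGroup.mk Jsl : Matrix.ProjectiveSpecialLinearGroup (Fin 3) F) := by
  obtain ⟨A, rfl⟩ := QuotientGroup.mk_surjective x
  obtain ⟨s, hs, hsA⟩ := exists_code hsurj (A : Matrix (Fin 3) (Fin 3) F)
  have r2 := hmul h2 hω s s A A hs hs hsA hsA
  have k1 := key h2 hω s A hs hsA
  have k2 := key h2 hω (mmN s s) (A * A) r2.1 r2.2
  have hAA : A * A ∈ Subgroup.center (Matrix.SpecialLinearGroup (Fin 3) F) := by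
    apply (QuotientGroup.eq_one_iff _).1
    rw [QuotientGroup.mk_mul, ← pow_two, ← hx]
    exact pow_orderOf_eq_one _
  have hA : A ∉ Subgroup.center (Matrix.SpecialLinearGroup (Fin 3) F) := by
    intro hA
    have h1 : (QuotientGroup.mk A : Matrix.ProjectiveSpecialLinearGroup (Fin 3) F) = 1 :=
      (QuotientGroup.eq_one_iff _).2 hA
    rw [h1, orderOf_one] at hx
    omega
  have hdet : detN s = 1 := by
    have d := det_spec h2 hω s hs
    apply cc_inj h2 hω d.1 (by norm_num)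
    rw [d.2, hsA, cc_one]
    exact A.det_coe
  have hsc2 : isScN (mmN s s) = true := k2.2 hAA
  have hsc1 : ¬ isScN s = true := fun h => hA (k1.1 h)
  have hc := chk2_all s hs
  unfold chk2 at hc
  rw [hdet] at hc
  have hb : Nat.beq 1 1 = true := rfl
  rw [if_pos hb, if_pos hsc2, if_neg hsc1] at hc
  simp only [Bool.and_eq_true] at hc
  obtain ⟨⟨hc1, hc2⟩, hc3⟩ := hc
  have hcred := red_of_redB _ hc1
  have hcdet := Nat.eq_of_beq_eq_true hc2
  have hceq := eq_of_eqM _ _ hc3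
  have hlam : (mmN s s).a < 4 := r2.1.1
  have hsp := scale_spec h2 hω (mmN s s).a hlam s hs
  have m1 := mm_spec h2 hω (cert s) (scaleN (mmN s s).a s) hcred hsp.1
  have hJred : red Jn := by
    unfold red Jn
    norm_num
  have m2 := mm_spec h2 hω Jn (cert s) hJred hcred
  have hCdet : (matC ω (cert s)).det = 1 := by
    rw [← (det_spec h2 hω (cert s) hcred).2, hcdet, cc_one]
  have hE : matC ω (cert s) * (cc ω (mmN s s).a • (A : Matrix (Fin 3) (Fin 3) F)) =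
      (Jsl : Matrix (Fin 3) (Fin 3) F) * matC ω (cert s) := by
    rw [hJ, ← m2.2, ← hceq, m1.2, hsp.2, hsA]
  have hAAm : (A : Matrix (Fin 3) (Fin 3) F) * (A : Matrix (Fin 3) (Fin 3) F) =
      Matrix.scalar (Fin 3) (cc ω (mmN s s).a) := by
    rw [← of_isSc (ω := ω) (mmN s s) hsc2, r2.2, Matrix.SpecialLinearGroup.coe_mul]
  have hlam3 : (cc ω (mmN s s).a) ^ 3 = 1 := by
    have h4 := congrArg Matrix.det hAAm
    rw [Matrix.det_mul, A.det_coe, one_mul] at h4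
    rw [h4]
    simp
  generalize cc ω (mmN s s).a = lam at hE hAAm hlam3
  generalize matC ω (cert s) = Cm at hE hCdet
  let C : Matrix.SpecialLinearGroup (Fin 3) F := ⟨Cm, hCdet⟩
  let Z : Matrix.SpecialLinearGroup (Fin 3) F := ⟨Matrix.scalar (Fin 3) (lam ^ 2), by
    simp only [Matrix.scalar_apply, Matrix.det_diagonal, Finset.prod_const, Finset.card_univ,
      Fintype.card_fin]
    rw [← pow_mul]
    have : lam ^ (2 * 3) = (lam ^ 3) ^ 2 := by ring
    rw [this, hlam3, one_pow]⟩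
  have hZ : Z ∈ Subgroup.center (Matrix.SpecialLinearGroup (Fin 3) F) := by
    rw [Matrix.SpecialLinearGroup.mem_center_iff]
    refine ⟨lam ^ 2, ?_, rfl⟩
    rw [Fintype.card_fin, ← pow_mul]
    have : lam ^ (2 * 3) = (lam ^ 3) ^ 2 := by ring
    rw [this, hlam3, one_pow]
  have hCA : C * A = Z * (Jsl * C) := by
    apply Subtype.ext
    show Cm * (A : Matrix (Fin 3) (Fin 3) F) =
      Matrix.scalar (Fin 3) (lam ^ 2) * ((Jsl : Matrix (Fin 3) (Fin 3) F) * Cm)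
    rw [← hE, Matrix.scalar_apply, ← Matrix.smul_eq_diagonal_mul, Matrix.mul_smul, smul_smul]
    have : lam ^ 2 * lam = lam ^ 3 := by ring
    rw [this, hlam3, one_smul]
  have hq : (QuotientGroup.mk C : Matrix.ProjectiveSpecialLinearGroup (Fin 3) F) *
      QuotientGroup.mk A = QuotientGroup.mk Jsl * QuotientGroup.mk C := by
    rw [← QuotientGroup.mk_mul, hCA, QuotientGroup.mk_mul, QuotientGroup.mk_mul,
      (QuotientGroup.eq_one_iff Z).2 hZ, one_mul]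
  rw [isConj_iff]
  refine ⟨QuotientGroup.mk C, ?_⟩
  rw [hq, mul_inv_cancel_right]

end field

theorem invconj {F : Type*} [Field F] [Fintype F] (hF : Fintype.card F = 4)
    (x y : Matrix.ProjectiveSpecialLinearGroup (Fin 3) F) (hx : orderOf x = 2)
    (hy : orderOf y = 2) : IsConj x y := by
  obtain ⟨h2, ω, hω, hsurj⟩ := field4 hF
  have hJred : red Jn := by
    unfold red Jn
    norm_num
  have hJdet : (matC ω Jn).det = 1 := by
    rw [← (det_spec h2 hω Jn hJred).2]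
    have : detN Jn = 1 := by decide
    rw [this, cc_one]
  have hx' := conjJ h2 hω hsurj ⟨matC ω Jn, hJdet⟩ rfl x hx
  have hy' := conjJ h2 hω hsurj ⟨matC ω Jn, hJdet⟩ rfl y hy
  exact hx'.trans hy'.symm

end Cfsg.Agent.Lib.Helper2.PSL34
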