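import Mathlib
import Cfsg.Prelude.Def_Classical
import Cfsg.Agent.Lib.Helper2.U32

set_option autoImplicit false

namespace Cfsg.Agent.Lib.Helper2.PSL34

open Cfsg

theorem eqM_refl (s : M9) : eqM s s = true := by
  unfold eqM
  simp [Nat.beq_refl]

theorem L216_nodup : L216.Nodup := List.Nodup.of_map codeN L216_codes_nodup

section field

variable {F : Type*} [Field F] {ω : F}

theorem matC_inj (h2 : (2 : F) = 0) (hω : ω ^ 2 + ω + 1 = 0) (s t : M9) (hs : red s) (ht : red t)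
    (h : matC ω s = matC ω t) : s = t := by
  obtain ⟨sa, sb, sc, sd, se, sf, sg, sh, si⟩ := hs
  obtain ⟨ta, tb, tc, td, te, tf, tg, th, ti⟩ := ht
  have h00 := congrFun (congrFun h 0) 0
  have h01 := congrFun (congrFun h 0) 1
  have h02 := congrFun (congrFun h 0) 2
  have h10 := congrFun (congrFun h 1) 0
  have h11 := congrFun (congrFun h 1) 1
  have h12 := congrFun (congrFun h 1) 2
  have h20 := congrFun (congrFun h 2) 0
  have h21 := congrFun (congrFun h 2) 1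
  have h22 := congrFun (congrFun h 2) 2
  simp [matC] at h00 h01 h02 h10 h11 h12 h20 h21 h22
  obtain ⟨a, b, c, d, e, f, g, h', i⟩ := s
  obtain ⟨a', b', c', d', e', f', g', h'', i'⟩ := t
  simp only at *
  have e1 := cc_inj h2 hω sa ta h00
  have e2 := cc_inj h2 hω sb tb h01
  have e3 := cc_inj h2 hω sc tc h02
  have e4 := cc_inj h2 hω sd td h10
  have e5 := cc_inj h2 hω se te h11
  have e6 := cc_inj h2 hω sf tf h12
  have e7 := cc_inj h2 hω sg tg h20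
  have e8 := cc_inj h2 hω sh th h21
  have e9 := cc_inj h2 hω si ti h22
  subst e1 e2 e3 e4 e5 e6 e7 e8 e9
  rfl

theorem hcol_spec (h2 : (2 : F) = 0) (hω : ω ^ 2 + ω + 1 = 0) {x0 x1 x2 y0 y1 y2 : ℕ}
    (hx0 : x0 < 4) (hx1 : x1 < 4) (hx2 : x2 < 4) (hy0 : y0 < 4) (hy1 : y1 < 4) (hy2 : y2 < 4) :
    hcol x0 x1 x2 y0 y1 y2 < 4 ∧ cc ω (hcol x0 x1 x2 y0 y1 y2) =
      cc ω x0 * (cc ω y0) ^ 2 + cc ω x1 * (cc ω y1) ^ 2 + cc ω x2 * (cc ω y2) ^ 2 := by
  unfold hcol sqT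
  have d := dot3_spec h2 hω hx0 (mulT_lt y0 y0) hx1 (mulT_lt y1 y1) hx2 (mulT_lt y2 y2)
  refine ⟨d.1, ?_⟩
  rw [d.2, cc_mulT h2 hω hy0 hy0, cc_mulT h2 hω hy1 hy1, cc_mulT h2 hω hy2 hy2]
  ring

theorem herm_pres (h2 : (2 : F) = 0) (a b c d e f g h i : F)
    (E00 : a * a ^ 2 + d * d ^ 2 + g * g ^ 2 = 1) (E01 : a * b ^ 2 + d * e ^ 2 + g * h ^ 2 = 0)
    (E02 : a * c ^ 2 + d * f ^ 2 + g * i ^ 2 = 0) (E10 : b * a ^ 2 + e * d ^ 2 + h * g ^ 2 = 0)
    (E11 : b * b ^ 2 + e * e ^ 2 + h * h ^ 2 = 1) (E12 : b * c ^ 2 + e * f ^ 2 + h * i ^ 2 = 0)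
    (E20 : c * a ^ 2 + f * d ^ 2 + i * g ^ 2 = 0) (E21 : c * b ^ 2 + f * e ^ 2 + i * h ^ 2 = 0)
    (E22 : c * c ^ 2 + f * f ^ 2 + i * i ^ 2 = 1) (u v : Fin 3 → F) :
    hermForm 3 F 2 (Matrix.mulVec !![a, b, c; d, e, f; g, h, i] u)
      (Matrix.mulVec !![a, b, c; d, e, f; g, h, i] v) = hermForm 3 F 2 u v := by
  simp only [hermForm, Fin.sum_univ_three, Matrix.mulVec, dotProduct, Matrix.of_apply,
    Matrix.cons_val', Matrix.cons_val_zero, Matrix.cons_val_one, Matrix.cons_val_two,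
    Matrix.cons_val_fin_one, Matrix.head_cons, Matrix.tail_cons, Matrix.head_fin_const]
  linear_combination (u 0 * (v 0) ^ 2) * E00 + (u 0 * (v 1) ^ 2) * E01 + (u 0 * (v 2) ^ 2) * E02 + (u 1 * (v 0) ^ 2) * E10 + (u 1 * (v 1) ^ 2) * E11 + (u 1 * (v 2) ^ 2) * E12 + (u 2 * (v 0) ^ 2) * E20 + (u 2 * (v 1) ^ 2) * E21 + (u 2 * (v 2) ^ 2) * E22 + ((a * u 0 + b * u 1 + c * u 2) * (a * v 0 * (b * v 1) + a * v 0 * (c * v 2) + b * v 1 * (c * v 2)) + (d * u 0 + e * u 1 + f * u 2) * (d * v 0 * (e * v 1) + d * v 0 * (f * v 2) + e * v 1 * (f * v 2)) + (g * u 0 + h * u 1 + i * u 2) * (g * v 0 * (h * v 1) + g * v 0 * (i * v 2) + h * v 1 * (i * v 2))) * h2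

theorem herm_eqs (a b c d e f g h i : F)
    (hpres : ∀ u v : Fin 3 → F, hermForm 3 F 2 (Matrix.mulVec !![a, b, c; d, e, f; g, h, i] u)
      (Matrix.mulVec !![a, b, c; d, e, f; g, h, i] v) = hermForm 3 F 2 u v) :
    (a * a ^ 2 + d * d ^ 2 + g * g ^ 2 = 1) ∧ (a * b ^ 2 + d * e ^ 2 + g * h ^ 2 = 0) ∧
    (a * c ^ 2 + d * f ^ 2 + g * i ^ 2 = 0) ∧ (b * a ^ 2 + e * d ^ 2 + h * g ^ 2 = 0) ∧
    (b * b ^ 2 + e * e ^ 2 + h * h ^ 2 = 1) ∧ (b * c ^ 2 + e * f ^ 2 + h * i ^ 2 = 0) ∧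
    (c * a ^ 2 + f * d ^ 2 + i * g ^ 2 = 0) ∧ (c * b ^ 2 + f * e ^ 2 + i * h ^ 2 = 0) ∧
    (c * c ^ 2 + f * f ^ 2 + i * i ^ 2 = 1) := by
  have key : ∀ i' j' : Fin 3, hermForm 3 F 2
      (Matrix.mulVec !![a, b, c; d, e, f; g, h, i] (Pi.single i' 1))
      (Matrix.mulVec !![a, b, c; d, e, f; g, h, i] (Pi.single j' 1)) =
      hermForm 3 F 2 (Pi.single i' 1) (Pi.single j' 1) := fun i' j' => hpres _ _
  have k00 := key 0 0
  have k01 := key 0 1
  have k02 := key 0 2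
  have k10 := key 1 0
  have k11 := key 1 1
  have k12 := key 1 2
  have k20 := key 2 0
  have k21 := key 2 1
  have k22 := key 2 2
  simp [hermForm, Fin.sum_univ_three, Matrix.mulVec_single_one, Pi.single_apply] at k00 k01 k02 k10 k11 k12 k20 k21 k22
  refine ⟨?_, ?_, ?_, ?_, ?_, ?_, ?_, ?_, ?_⟩
  · linear_combination k00
  · linear_combination k01
  · linear_combination k02
  · linear_combination k10
  · linear_combination k11
  · linear_combination k12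
  · linear_combination k20
  · linear_combination k21
  · linear_combination k22

theorem uni_of_pres (h2 : (2 : F) = 0) (hω : ω ^ 2 + ω + 1 = 0) (s : M9) (hs : red s)
    (hpres : ∀ u v : Fin 3 → F, hermForm 3 F 2 (Matrix.mulVec (matC ω s) u)
      (Matrix.mulVec (matC ω s) v) = hermForm 3 F 2 u v) : uniChk s = true := by
  obtain ⟨sa, sb, sc, sd, se, sf, sg, sh, si⟩ := hs
  obtain ⟨E00, E01, E02, E10, E11, E12, E20, E21, E22⟩ := herm_eqs _ _ _ _ _ _ _ _ _ hpres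
  have z4 : (0 : ℕ) < 4 := by norm_num
  have o4 : (1 : ℕ) < 4 := by norm_num
  have c00 := hcol_spec h2 hω sa sd sg sa sd sg
  have c01 := hcol_spec h2 hω sa sd sg sb se sh
  have c02 := hcol_spec h2 hω sa sd sg sc sf si
  have c10 := hcol_spec h2 hω sb se sh sa sd sg
  have c11 := hcol_spec h2 hω sb se sh sb se sh
  have c12 := hcol_spec h2 hω sb se sh sc sf si
  have c20 := hcol_spec h2 hω sc sf si sa sd sg
  have c21 := hcol_spec h2 hω sc sf si sb se sh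
  have c22 := hcol_spec h2 hω sc sf si sc sf si
  have e00 := cc_inj h2 hω c00.1 o4 (by rw [c00.2, cc_one]; exact E00)
  have e01 := cc_inj h2 hω c01.1 z4 (by rw [c01.2, cc_zero]; exact E01)
  have e02 := cc_inj h2 hω c02.1 z4 (by rw [c02.2, cc_zero]; exact E02)
  have e10 := cc_inj h2 hω c10.1 z4 (by rw [c10.2, cc_zero]; exact E10)
  have e11 := cc_inj h2 hω c11.1 o4 (by rw [c11.2, cc_one]; exact E11)
  have e12 := cc_inj h2 hω c12.1 z4 (by rw [c12.2, cc_zero]; exact E12)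
  have e20 := cc_inj h2 hω c20.1 z4 (by rw [c20.2, cc_zero]; exact E20)
  have e21 := cc_inj h2 hω c21.1 z4 (by rw [c21.2, cc_zero]; exact E21)
  have e22 := cc_inj h2 hω c22.1 o4 (by rw [c22.2, cc_one]; exact E22)
  unfold uniChk
  rw [e00, e01, e02, e10, e11, e12, e20, e21, e22]
  rfl

theorem pres_of_uni (h2 : (2 : F) = 0) (hω : ω ^ 2 + ω + 1 = 0) (s : M9) (hs : red s)
    (hu : uniChk s = true) (u v : Fin 3 → F) :
    hermForm 3 F 2 (Matrix.mulVec (matC ω s) u) (Matrix.mulVec (matC ω s) v) =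
      hermForm 3 F 2 u v := by
  obtain ⟨sa, sb, sc, sd, se, sf, sg, sh, si⟩ := hs
  unfold uniChk at hu
  simp only [Bool.and_eq_true] at hu
  obtain ⟨⟨⟨⟨⟨⟨⟨⟨u00, u01⟩, u02⟩, u10⟩, u11⟩, u12⟩, u20⟩, u21⟩, u22⟩ := hu
  have c00 := hcol_spec h2 hω sa sd sg sa sd sg
  have c01 := hcol_spec h2 hω sa sd sg sb se sh
  have c02 := hcol_spec h2 hω sa sd sg sc sf si
  have c10 := hcol_spec h2 hω sb se sh sa sd sg
  have c11 := hcol_spec h2 hω sb se sh sb se sh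
  have c12 := hcol_spec h2 hω sb se sh sc sf si
  have c20 := hcol_spec h2 hω sc sf si sa sd sg
  have c21 := hcol_spec h2 hω sc sf si sb se sh
  have c22 := hcol_spec h2 hω sc sf si sc sf si
  unfold matC
  apply herm_pres h2
  · rw [← c00.2, Nat.eq_of_beq_eq_true u00, cc_one]
  · rw [← c01.2, Nat.eq_of_beq_eq_true u01, cc_zero]
  · rw [← c02.2, Nat.eq_of_beq_eq_true u02, cc_zero]
  · rw [← c10.2, Nat.eq_of_beq_eq_true u10, cc_zero]
  · rw [← c11.2, Nat.eq_of_beq_eq_true u11, cc_one]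
  · rw [← c12.2, Nat.eq_of_beq_eq_true u12, cc_zero]
  · rw [← c20.2, Nat.eq_of_beq_eq_true u20, cc_zero]
  · rw [← c21.2, Nat.eq_of_beq_eq_true u21, cc_zero]
  · rw [← c22.2, Nat.eq_of_beq_eq_true u22, cc_one]

end field

end Cfsg.Agent.Lib.Helper2.PSL34
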