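import Mathlib
import Cfsg.Prelude.Def_Classical
import Cfsg.Agent.Lib.Helper2.U32b

set_option autoImplicit false

namespace Cfsg.Agent.Lib.Helper2.PSL34

open Cfsg

section field

variable {F : Type*} [Field F]

def suMat (g : ↥(SU 3 F 2)) : Matrix (Fin 3) (Fin 3) F :=
  ((g : Matrix.SpecialLinearGroup (Fin 3) F) : Matrix (Fin 3) (Fin 3) F)

theorem suMat_mul (g h : ↥(SU 3 F 2)) : suMat (g * h) = suMat g * suMat h := by
  simp [suMat]

theorem suMat_inj : Function.Injective (suMat (F := F)) := by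
  intro g h hgh
  apply Subtype.ext
  apply Subtype.ext
  exact hgh

theorem suMat_det (g : ↥(SU 3 F 2)) : (suMat g).det = 1 := g.1.2

theorem suMat_pres (g : ↥(SU 3 F 2)) (u v : Fin 3 → F) :
    hermForm 3 F 2 (Matrix.mulVec (suMat g) u) (Matrix.mulVec (suMat g) v) =
      hermForm 3 F 2 u v := g.2 u v

theorem exists_su (A : Matrix (Fin 3) (Fin 3) F) (hdet : A.det = 1)
    (hpres : ∀ u v, hermForm 3 F 2 (A.mulVec u) (A.mulVec v) = hermForm 3 F 2 u v) :
    ∃ g : ↥(SU 3 F 2), suMat g = A :=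
  ⟨⟨⟨A, hdet⟩, fun u v => hpres u v⟩, rfl⟩

structure Cod (ω : F) where
  h2 : (2 : F) = 0
  hω : ω ^ 2 + ω + 1 = 0
  code : ↥(SU 3 F 2) → M9
  hcred : ∀ g, red (code g)
  hcmat : ∀ g, matC ω (code g) = suMat g

theorem exists_cod [Fintype F] (hF : Fintype.card F = 4) : ∃ ω : F, Nonempty (Cod ω) := by
  obtain ⟨h2, ω, hω, hsurj⟩ := field4 hF
  choose code hcred hcmat using fun g : ↥(SU 3 F 2) => exists_code hsurj (suMat g)
  exact ⟨ω, ⟨⟨h2, hω, code, hcred, hcmat⟩⟩⟩

variable {ω : F} (C : Cod ω)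

namespace Cod

theorem code_mul (g h : ↥(SU 3 F 2)) : C.code (g * h) = mmN (C.code g) (C.code h) := by
  have m := mm_spec C.h2 C.hω (C.code g) (C.code h) (C.hcred g) (C.hcred h)
  exact matC_inj C.h2 C.hω _ _ (C.hcred _) m.1
    (by rw [C.hcmat, m.2, C.hcmat, C.hcmat, suMat_mul])

theorem code_inj {g h : ↥(SU 3 F 2)} (e : C.code g = C.code h) : g = h :=
  suMat_inj (by rw [← C.hcmat g, ← C.hcmat h, e])

theorem code_mem (g : ↥(SU 3 F 2)) : C.code g ∈ L216 := by
  have h1 := chk3_all (C.code g) (C.hcred g)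
  unfold chk3 at h1
  have hdet : Nat.beq (detN (C.code g)) 1 = true := by
    have d := det_spec C.h2 C.hω (C.code g) (C.hcred g)
    have h1' : detN (C.code g) = 1 :=
      cc_inj C.h2 C.hω d.1 (by norm_num) (by rw [d.2, C.hcmat, suMat_det, cc_one])
    rw [h1']
    rfl
  have hu : uniChk (C.code g) = true :=
    uni_of_pres C.h2 C.hω _ (C.hcred g) (by rw [C.hcmat]; exact suMat_pres g)
  rw [hdet, hu] at h1
  simp only [Bool.and_self, if_true] at h1
  unfold memL216 at h1
  obtain ⟨t, ht, hte⟩ := List.any_eq_true.1 h1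
  rw [eq_of_eqM _ _ hte]
  exact ht

theorem code_surj (s : M9) (hs : s ∈ L216) : ∃ g, C.code g = s := by
  have h1 := List.all_eq_true.1 L216_spec s hs
  simp only [Bool.and_eq_true] at h1
  obtain ⟨⟨hr, hd⟩, hu⟩ := h1
  have hred := red_of_redB s hr
  have d := det_spec C.h2 C.hω s hred
  have hdet : (matC ω s).det = 1 := by rw [← d.2, Nat.eq_of_beq_eq_true hd, cc_one]
  obtain ⟨g, hg⟩ := exists_su (matC ω s) hdet (pres_of_uni C.h2 C.hω s hred hu)
  exact ⟨g, matC_inj C.h2 C.hω _ _ (C.hcred g) hred (by rw [C.hcmat, hg])⟩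

theorem card_of (K : Subgroup ↥(SU 3 F 2)) (P : M9 → Bool)
    (hK : ∀ g, g ∈ K ↔ P (C.code g) = true) : Nat.card K = (L216.filter P).length := by
  classical
  have hnd : (L216.filter P).Nodup := L216_nodup.filter _
  rw [← List.toFinset_card_of_nodup hnd, ← Nat.card_eq_finsetCard]
  apply Nat.card_congr
  refine Equiv.ofBijective (fun g => ⟨C.code g.1, ?_⟩) ⟨?_, ?_⟩
  · rw [List.mem_toFinset, List.mem_filter]
    exact ⟨C.code_mem g.1, (hK g.1).1 g.2⟩
  · intro g h e
    apply Subtype.ext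
    exact C.code_inj (Subtype.ext_iff.1 e)
  · rintro ⟨s, hs⟩
    rw [List.mem_toFinset, List.mem_filter] at hs
    obtain ⟨g, rfl⟩ := C.code_surj s hs.1
    exact ⟨⟨g, (hK g).2 hs.2⟩, rfl⟩

theorem mem_center (g : ↥(SU 3 F 2)) :
    g ∈ Subgroup.center ↥(SU 3 F 2) ↔ isScN (C.code g) = true := by
  constructor
  · intro hg
    have h1 := List.all_eq_true.1 cen_spec (C.code g) (C.code_mem g)
    have h2 : (L216.all fun t => eqM (mmN (C.code g) t) (mmN t (C.code g))) = true := by
      apply List.all_eq_true.2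
      intro t ht
      obtain ⟨h, rfl⟩ := C.code_surj t ht
      rw [← C.code_mul, ← C.code_mul, Subgroup.mem_center_iff.1 hg h]
      exact eqM_refl _
    rw [h2] at h1
    simpa using h1
  · intro hsc
    apply Subgroup.mem_center_iff.2
    intro h
    apply suMat_inj
    rw [suMat_mul, suMat_mul, ← C.hcmat g, of_isSc _ hsc]
    exact ((Matrix.scalar_commute _ (fun r' => Commute.all _ r') _).eq).symm

theorem card_center (C : Cod ω) : Nat.card (Subgroup.center ↥(SU 3 F 2)) = 3 := by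
  rw [C.card_of _ isScN C.mem_center]
  exact count_Z

theorem card_su (C : Cod ω) : Nat.card ↥(SU 3 F 2) = 216 := by
  have h := C.card_of ⊤ (fun _ => true) (fun g => by simp)
  rw [Subgroup.card_top] at h
  rw [h]
  simp [L216_length]

theorem card_psu (C : Cod ω) : Nat.card (PSU 3 F 2) = 72 := by
  have h := Subgroup.card_eq_card_quotient_mul_card_subgroup (Subgroup.center ↥(SU 3 F 2))
  rw [C.card_center, C.card_su] at h
  have h' : Nat.card (PSU 3 F 2) = Nat.card (↥(SU 3 F 2) ⧸ Subgroup.center ↥(SU 3 F 2)) := rfl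
  omega

theorem mk_eq_one (g : ↥(SU 3 F 2)) :
    (QuotientGroup.mk g : PSU 3 F 2) = 1 ↔ isScN (C.code g) = true := by
  rw [QuotientGroup.eq_one_iff]
  exact C.mem_center g

theorem card_sub (K : Subgroup (PSU 3 F 2)) (P : M9 → Bool)
    (hK : ∀ g : ↥(SU 3 F 2), (QuotientGroup.mk g : PSU 3 F 2) ∈ K ↔ P (C.code g) = true)
    (n : ℕ) (hn : (L216.filter P).length = 3 * n) : Nat.card K = n := by
  have h1 : Nat.card (K.comap (QuotientGroup.mk' (Subgroup.center ↥(SU 3 F 2)))) = 3 * n := by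
    rw [C.card_of _ P (fun g => by rw [Subgroup.mem_comap]; exact hK g)]
    exact hn
  have h2 : (K.comap (QuotientGroup.mk' (Subgroup.center ↥(SU 3 F 2)))).index = K.index :=
    Subgroup.index_comap_of_surjective K (QuotientGroup.mk'_surjective _)
  have h3 := Subgroup.card_mul_index (K.comap (QuotientGroup.mk' (Subgroup.center ↥(SU 3 F 2))))
  have h4 := Subgroup.card_mul_index K
  rw [h1, h2, C.card_su] at h3
  rw [C.card_psu] at h4
  have h5 : K.index ≠ 0 := by
    intro h0
    rw [h0] at h3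
    omega
  have h6 : n * K.index = Nat.card K * K.index := by
    have : 3 * (n * K.index) = 3 * (Nat.card K * K.index) := by
      rw [h4, ← mul_assoc, h3]
    omega
  exact (Nat.eq_of_mul_eq_mul_right (Nat.pos_of_ne_zero h5) h6).symm

end Cod

end field

end Cfsg.Agent.Lib.Helper2.PSL34
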