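import Mathlib
import Cfsg.Prelude.Def_Classical
import Cfsg.Agent.Lib.Helper2.U32c

set_option autoImplicit false

namespace Cfsg.Agent.Lib.Helper2.PSL34

open Cfsg

open scoped Pointwise

def p6 (s : M9) : M9 := mmN (p3 s) (p3 s)

set_option maxRecDepth 1000000 in
theorem six_spec : L216.all (fun s => !(isScN (p6 s)) ||
    L216.all (fun t => !(isScN (p6 t)) || isScN (p6 (mmN s t)))) = true := by decide +kernel

set_option maxRecDepth 1000000 in
theorem count_6 : (L216.filter (fun s => isScN (p6 s))).length = 54 := by decide +kernel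

section field

variable {F : Type*} [Field F] {ω : F}

theorem pow6_iff (C : Cod ω) (g : ↥(SU 3 F 2)) :
    (QuotientGroup.mk g : PSU 3 F 2) ^ 6 = 1 ↔ isScN (p6 (C.code g)) = true := by
  have h : (QuotientGroup.mk g : PSU 3 F 2) ^ 6 = QuotientGroup.mk (g * g * g * (g * g * g)) := by
    rw [show (6 : ℕ) = 3 + 3 from rfl, pow_add, pow_three']
    rfl
  rw [h, C.mk_eq_one, C.code_mul, C.code_mul, C.code_mul]
  rfl

def H6 (C : Cod ω) : Subgroup (PSU 3 F 2) where
  carrier := {x | x ^ 6 = 1}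
  mul_mem' := by
    intro x y hx hy
    obtain ⟨g, rfl⟩ := QuotientGroup.mk_surjective x
    obtain ⟨h, rfl⟩ := QuotientGroup.mk_surjective y
    rw [Set.mem_setOf_eq] at hx hy ⊢
    rw [pow6_iff C] at hx hy
    rw [← QuotientGroup.mk_mul, pow6_iff C, C.code_mul]
    have h1 := List.all_eq_true.1 six_spec (C.code g) (C.code_mem g)
    rw [hx] at h1
    simp only [Bool.not_true, Bool.false_or] at h1
    have h2 := List.all_eq_true.1 h1 (C.code h) (C.code_mem h)
    rw [hy] at h2
    simpa using h2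
  one_mem' := by simp
  inv_mem' := by
    intro x hx
    rw [Set.mem_setOf_eq] at hx ⊢
    rw [inv_pow, hx, inv_one]

theorem H6_normal (C : Cod ω) : (H6 C).Normal := by
  refine ⟨fun n hn g => ?_⟩
  change (g * n * g⁻¹) ^ 6 = 1
  have hn' : n ^ 6 = 1 := hn
  rw [conj_pow, hn']
  simp

theorem H6_card (C : Cod ω) : Nat.card (H6 C) = 18 :=
  C.card_sub (H6 C) (fun s => isScN (p6 s)) (fun g => pow6_iff C g) 18 (by rw [count_6])

theorem u32_not_compl [Fintype F] (hF : Fintype.card F = 4) :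
    ¬ ComplementedLattice (Subgroup (PSU 3 F 2)) := by
  intro hcl
  obtain ⟨ω, ⟨C⟩⟩ := exists_cod hF
  obtain ⟨X, hX⟩ := hcl.exists_isCompl (H6 C)
  haveI := H6_normal C
  have hdisj : Disjoint (H6 C) X := hX.disjoint
  have hsup : H6 C ⊔ X = ⊤ := hX.sup_eq_top
  have hmul : ((H6 C : Set (PSU 3 F 2)) * (X : Set (PSU 3 F 2))) = Set.univ := by
    rw [← Subgroup.normal_mul, hsup]
    rfl
  have hc : Subgroup.IsComplement' (H6 C) X :=
    Subgroup.isComplement'_of_disjoint_and_mul_eq_univ hdisj hmul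
  have hcard := hc.card_mul_card
  rw [H6_card, C.card_psu] at hcard
  have h2 : 2 ∣ Nat.card X := ⟨2, by omega⟩
  haveI : Finite X := Nat.finite_of_card_ne_zero (by omega)
  obtain ⟨t, ht⟩ := exists_prime_orderOf_dvd_card' 2 h2
  have ht2 : (t : PSU 3 F 2) ^ 2 = 1 := by
    have h := pow_orderOf_eq_one t
    rw [ht] at h
    exact_mod_cast congrArg Subtype.val h
  have hmem : (t : PSU 3 F 2) ∈ H6 C := by
    change (t : PSU 3 F 2) ^ 6 = 1
    rw [show (6 : ℕ) = 2 * 3 from rfl, pow_mul, ht2, one_pow]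
  have hbot : (t : PSU 3 F 2) ∈ (H6 C) ⊓ X := ⟨hmem, t.2⟩
  rw [hdisj.eq_bot, Subgroup.mem_bot] at hbot
  have h1 : t = 1 := Subtype.ext hbot
  rw [h1, orderOf_one] at ht
  norm_num at ht

end field

end Cfsg.Agent.Lib.Helper2.PSL34
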